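import Mathlib
import Cfsg.Agent.Lib.FG7.BurnsideBasis
import Cfsg.Agent.Lib.Transfer.Basic
import Cfsg.Agent.Lib.Coprime.Action
import Cfsg.Agent.Lib.Solvable.Hall

/-!
# Lifting abelian subgroups of quotients

`M` is a normal subgroup of the finite group `G`.  Under suitable conditions on the Sylow subgroups
we lift an abelian subgroup `A` of `G / M`, inside a prescribed subgroup `C`, to an abelian
subgroup of `G` whose order depends only on `|A|` and `M`.
-/

set_option autoImplicit false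
set_option linter.style.haveILetI false

namespace Cfsg.Agent.Lib.BN.Lift

open Subgroup

section frattini

variable {p : ℕ} [hp : Fact p.Prime]

/-- An automorphism of a `p`-group of order prime to `p`, trivial on the Frattini quotient, is
trivial. -/
theorem aut_eq_one_of_frattini {Q : Type*} [Group Q] [Finite Q] (hQ : IsPGroup p Q)
    (α : MulAut Q) (m : ℕ) (hm : α ^ m = 1) (hcop : m.Coprime p)
    (hfix : ∀ x : Q, α x * x⁻¹ ∈ frattini Q) : α = 1 := by
  set Φ := frattini Q with hΦ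
  obtain ⟨n, hn⟩ := IsPGroup.iff_card.mp hQ
  obtain ⟨r, hr⟩ : ∃ r, Φ.index = p ^ r := by
    have : IsPGroup p (Q ⧸ Φ) := hQ.to_quotient Φ
    obtain ⟨r, hr⟩ := IsPGroup.iff_card.mp this
    exact ⟨r, hr⟩
  let A : Subgroup (MulAut Q) := Subgroup.zpowers α
  have hA : ∀ β ∈ A, ∀ x : Q, β x * x⁻¹ ∈ Φ := by
    have hpos : ∀ k : ℕ, ∀ x : Q, (α ^ k) x * x⁻¹ ∈ Φ := by
      intro k
      induction k with
      | zero => intro x; simp
      | succ k ih =>
        intro x
        rw [pow_succ']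
        have e : (α * α ^ k) x * x⁻¹ = (α ((α ^ k) x) * ((α ^ k) x)⁻¹) * ((α ^ k) x * x⁻¹) := by
          rw [MulAut.mul_apply]
          group
        rw [e]
        exact Φ.mul_mem (hfix _) (ih x)
    have hfin : ∀ k : ℤ, ∃ j : ℕ, α ^ k = α ^ j := by
      intro k
      have hord : 0 < orderOf α := orderOf_pos α
      refine ⟨(k % orderOf α).toNat, ?_⟩
      rw [← zpow_natCast, Int.toNat_of_nonneg (Int.emod_nonneg _ (by omega))]
      exact (zpow_mod_orderOf α k).symm
    rintro β ⟨k, rfl⟩ x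
    obtain ⟨j, hj⟩ := hfin k
    show (α ^ k) x * x⁻¹ ∈ Φ
    rw [hj]
    exact hpos j x
  have hdvd := Cfsg.Agent.Lib.FG7.BurnsideBasis.card_dvd (p := p) hn hr A hA
  have hAcard : Nat.card A = orderOf α := Nat.card_zpowers α
  rw [hAcard] at hdvd
  have h3 : orderOf α ∣ m := orderOf_dvd_of_pow_eq_one hm
  rw [← orderOf_eq_one_iff]
  exact Nat.eq_one_of_dvd_coprimes (Nat.Coprime.pow_right _ hcop) h3 hdvd

variable {G : Type*} [Group G] [Finite G]

/-- A `p`-element normalizing the `p`-group ... : coprime automorphisms trivial modulo the Frattini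
subgroup. -/
theorem mem_centralizer_of_frattini (Q : Subgroup G) (hQ : IsPGroup p Q) {v : G}
    (hv : v ∈ normalizer (Q : Set G)) (hco : (orderOf v).Coprime p) (M : Subgroup G)
    (hM : ∀ x : Q, (x : G) ∈ M → x ∈ frattini Q) (hc : ∀ b ∈ Q, v * b * v⁻¹ * b⁻¹ ∈ M) :
    v ∈ centralizer (Q : Set G) := by
  let α : MulAut Q := Subgroup.normalizerMonoidHom Q ⟨v, hv⟩
  have hαapp : ∀ b : Q, ((α b : Q) : G) = v * b * v⁻¹ := fun b => rfl
  have hαm : α ^ orderOf v = 1 := by
    rw [← map_pow]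
    have : (⟨v, hv⟩ : normalizer (Q : Set G)) ^ orderOf v = 1 := by
      apply Subtype.ext
      show v ^ orderOf v = 1
      exact pow_orderOf_eq_one v
    rw [this, map_one]
  have hα := aut_eq_one_of_frattini hQ α _ hαm hco (fun x => hM _ (by
    show (α x : G) * (x : G)⁻¹ ∈ M
    rw [hαapp]
    exact hc x x.2))
  rw [Subgroup.mem_centralizer_iff]
  intro y hy
  have h1 : α ⟨y, hy⟩ = ⟨y, hy⟩ := by rw [hα]; rfl
  have h2 := congrArg Subtype.val h1
  rw [hαapp] at h2
  calc y * v = (v * y * v⁻¹) * v := by rw [h2]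
    _ = v * y := by group

/-- Proper subgroups of a cyclic `p`-group lie in the Frattini subgroup. -/
theorem le_frattini_of_isCyclic {Q : Type*} [Group Q] [Finite Q] [IsCyclic Q] (hQ : IsPGroup p Q)
    (D : Subgroup Q) (hD : D ≠ ⊤) : D ≤ frattini Q := by
  classical
  obtain ⟨y, hy⟩ := IsCyclic.exists_generator (α := Q)
  intro x hx
  obtain ⟨k, rfl⟩ : ∃ k : ℕ, y ^ k = x := by
    have h1 : x ∈ Subgroup.zpowers y := hy x
    rw [mem_zpowers_iff_mem_range_orderOf] at h1
    simp only [Finset.mem_image] at h1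
    obtain ⟨k, -, hk⟩ := h1
    exact ⟨k, hk⟩
  by_cases hpk : p ∣ k
  · obtain ⟨j, rfl⟩ := hpk
    rw [mul_comm, pow_mul]
    exact Cfsg.Agent.Lib.PGroups.Basic.pow_mem_frattini hQ _
  · exfalso
    apply hD
    obtain ⟨n, hn⟩ := IsPGroup.iff_card.mp hQ
    have hord : orderOf y = p ^ n := by
      rw [← hn]
      exact orderOf_eq_card_of_forall_mem_zpowers hy
    have hcop : k.Coprime (orderOf y) := by
      rw [hord]
      apply Nat.Coprime.pow_right
      exact ((Nat.Prime.coprime_iff_not_dvd hp.out).mpr hpk).symm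
    obtain ⟨m, hm⟩ := exists_pow_eq_self_of_coprime hcop
    rw [eq_top_iff]
    intro z _
    have hyD : y ∈ D := by
      rw [← hm]
      exact D.pow_mem hx m
    obtain ⟨i, rfl⟩ := Subgroup.mem_zpowers_iff.mp (hy z)
    exact D.zpow_mem hyD i

/-- Conjugacy of Sylow subgroups of `T`, formulated in the ambient group. -/
theorem exists_conj_of_sylow_in {T Q Q₂ : Subgroup G} (hQT : Q ≤ T) (hQ₂T : Q₂ ≤ T)
    (hQp : IsPGroup p Q) (hQ₂p : IsPGroup p Q₂) (hidx : ¬ p ∣ (Q.subgroupOf T).index)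
    (hcard : Nat.card Q = Nat.card Q₂) : ∃ t ∈ T, Q₂ = Q.map (MulAut.conj t).toMonoidHom := by
  have h1 : IsPGroup p (Q.subgroupOf T) := hQp.comap_subtype
  have h2 : IsPGroup p (Q₂.subgroupOf T) := hQ₂p.comap_subtype
  have hcs1 : Nat.card (Q.subgroupOf T) = Nat.card Q :=
    Nat.card_congr (Subgroup.subgroupOfEquivOfLe hQT).toEquiv
  have hcs2 : Nat.card (Q₂.subgroupOf T) = Nat.card Q₂ :=
    Nat.card_congr (Subgroup.subgroupOfEquivOfLe hQ₂T).toEquiv
  have hidx2 : ¬ p ∣ (Q₂.subgroupOf T).index := by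
    have e1 := Subgroup.card_mul_index (Q.subgroupOf T)
    have e2 := Subgroup.card_mul_index (Q₂.subgroupOf T)
    rw [hcs1] at e1
    rw [hcs2, ← hcard] at e2
    have e3 : (Q₂.subgroupOf T).index = (Q.subgroupOf T).index :=
      Nat.eq_of_mul_eq_mul_left Nat.card_pos (e2.trans e1.symm)
    rwa [e3]
  let S := h1.toSylow hidx
  let S₂ := h2.toSylow hidx2
  obtain ⟨t, ht⟩ := MulAction.exists_smul_eq T S S₂
  refine ⟨t, t.2, ?_⟩
  have hS : ∀ x : T, x ∈ S ↔ (x : G) ∈ Q := fun x => by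
    rw [IsPGroup.mem_toSylow]
    exact Subgroup.mem_subgroupOf
  have hS₂ : ∀ x : T, x ∈ S₂ ↔ (x : G) ∈ Q₂ := fun x => by
    rw [IsPGroup.mem_toSylow]
    exact Subgroup.mem_subgroupOf
  have hsm : ∀ x : T, x ∈ t • S ↔ t⁻¹ * x * t ∈ S := by
    intro x
    change x ∈ (↑(t • S) : Subgroup T) ↔ _
    rw [Sylow.coe_subgroup_smul, Subgroup.mem_pointwise_smul_iff_inv_smul_mem]
    simp only [MulAut.smul_def, MulAut.conj_inv_apply]
    exact Iff.rfl
  ext x
  constructor
  · intro hx
    have hxT : x ∈ T := hQ₂T hx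
    have h3 : (⟨x, hxT⟩ : T) ∈ S₂ := (hS₂ _).2 hx
    rw [← ht, hsm, hS] at h3
    refine ⟨_, h3, ?_⟩
    show (t : G) * (_ * _ * _) * (t : G)⁻¹ = x
    simp [mul_assoc]
  · rintro ⟨b, hb, rfl⟩
    have hbT : b ∈ T := hQT hb
    have h5 : (MulAut.conj (t : G)).toMonoidHom b ∈ T :=
      T.mul_mem (T.mul_mem t.2 hbT) (T.inv_mem t.2)
    rw [← hS₂ ⟨_, h5⟩, ← ht, hsm, hS]
    have h6 : (((t : T)⁻¹ * ⟨_, h5⟩ * t : T) : G) = b := by
      show (t : G)⁻¹ * ((t : G) * b * (t : G)⁻¹) * (t : G) = b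
      group
    rw [h6]
    exact hb

end frattini

section primary

variable {H : Type*} [Group H] [Finite H]

/-- Primary decomposition of an abelian subgroup. -/
theorem exists_primary (A : Subgroup H) (hA : IsMulCommutative A) {p : ℕ} (hp : p.Prime)
    (hpd : p ∣ Nat.card A) :
    ∃ B A₁ : Subgroup H, B ≤ A ∧ A₁ ≤ A ∧ IsPGroup p B ∧ B ≠ ⊥ ∧
      Nat.card B * Nat.card A₁ = Nat.card A ∧ (Nat.card A₁).Coprime p ∧
      ∀ x ∈ A, ∃ b ∈ B, ∃ a ∈ A₁, x = b * a := by
  haveI : Fact p.Prime := ⟨hp⟩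
  let _ : CommGroup A := { (inferInstance : Group A) with mul_comm := fun a b => hA.is_comm.comm a b }
  obtain ⟨e, m, hm, hcard⟩ := Nat.exists_eq_pow_mul_and_not_dvd (n := Nat.card A) Nat.card_pos.ne' p
    hp.ne_one
  let φ : A →* A := powMonoidHom m
  let B₀ : Subgroup A := φ.range
  let A₀ : Subgroup A := φ.ker
  have hBle : B₀.map A.subtype ≤ A := by
    rintro _ ⟨x, -, rfl⟩
    exact x.2
  have hAle : A₀.map A.subtype ≤ A := by
    rintro _ ⟨x, -, rfl⟩
    exact x.2
  have hcardB : Nat.card (B₀.map A.subtype) = Nat.card B₀ :=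
    (Nat.card_congr (B₀.equivMapOfInjective _ A.subtype_injective).toEquiv).symm
  have hcardA : Nat.card (A₀.map A.subtype) = Nat.card A₀ :=
    (Nat.card_congr (A₀.equivMapOfInjective _ A.subtype_injective).toEquiv).symm
  have hmul : Nat.card B₀ * Nat.card A₀ = Nat.card A := by
    have h1 := Subgroup.card_mul_index A₀
    rw [show A₀.index = Nat.card B₀ from Subgroup.index_ker φ] at h1
    rw [mul_comm]
    exact h1
  refine ⟨B₀.map A.subtype, A₀.map A.subtype, hBle, hAle, ?_, ?_, ?_, ?_, ?_⟩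
  · -- `p`-group
    rintro ⟨_, x, ⟨y, rfl⟩, rfl⟩
    refine ⟨e, ?_⟩
    apply Subtype.ext
    have h2 : ((φ y) ^ p ^ e) = 1 := by
      show (y ^ m) ^ p ^ e = 1
      rw [← pow_mul, mul_comm, ← hcard]
      exact pow_card_eq_one'
    have h3 := congrArg Subtype.val h2
    exact h3
  · -- nontrivial
    obtain ⟨x, hx⟩ := exists_prime_orderOf_dvd_card' (G := A) p hpd
    intro hbot
    have h1 : ((φ x : A) : H) ∈ B₀.map A.subtype := ⟨φ x, ⟨x, rfl⟩, rfl⟩
    rw [hbot, Subgroup.mem_bot] at h1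
    have h2 : x ^ m = 1 := Subtype.ext h1
    have h3 := orderOf_dvd_of_pow_eq_one h2
    rw [hx] at h3
    exact hm h3
  · rw [hcardB, hcardA, hmul]
  · rw [hcardA, Nat.coprime_comm, Nat.Prime.coprime_iff_not_dvd hp]
    intro hd
    obtain ⟨x, hx⟩ := exists_prime_orderOf_dvd_card' (G := A₀) p hd
    have h2 : (x : A) ^ m = 1 := x.2
    have h3 := orderOf_dvd_of_pow_eq_one h2
    rw [Subgroup.orderOf_coe, hx] at h3
    exact hm h3
  · intro x hx
    have hcop : IsCoprime ((m : ℕ) : ℤ) ((p ^ e : ℕ) : ℤ) := by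
      rw [Nat.isCoprime_iff_coprime]
      exact (Nat.Coprime.pow_right e ((Nat.Prime.coprime_iff_not_dvd hp).mpr hm).symm)
    obtain ⟨u, v, huv⟩ := hcop
    let y : A := ⟨x, hx⟩
    have hy : y = (y ^ u) ^ m * (y ^ v) ^ (p ^ e) := by
      rw [← zpow_natCast, ← zpow_natCast, ← zpow_mul, ← zpow_mul, ← zpow_add, huv, zpow_one]
    refine ⟨(((y ^ u) ^ m : A) : H), ⟨_, ⟨y ^ u, rfl⟩, rfl⟩, (((y ^ v) ^ (p ^ e) : A) : H), ⟨(y ^ v) ^ (p ^ e), ?_, rfl⟩, ?_⟩
    · show ((y ^ v) ^ (p ^ e)) ^ m = 1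
      rw [← pow_mul, ← hcard]
      exact pow_card_eq_one'
    · have := congrArg Subtype.val hy
      exact this

end primary

section lift

variable {G : Type*} [Group G] [Finite G] (M : Subgroup G) [hM : M.Normal]

/-- The `p`-part of the order of `M`. -/
noncomputable def mPart (p : ℕ) : ℕ := p ^ (Nat.card M).factorization p

/-- The order of the lift of an abelian subgroup of order `n`. -/
noncomputable def liftCard (n : ℕ) : ℕ := n * ∏ r ∈ n.primeFactors, mPart M r

theorem liftCard_mul {a b : ℕ} (hab : a.Coprime b) :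
    liftCard M (a * b) = liftCard M a * liftCard M b := by
  unfold liftCard
  rw [hab.primeFactors_mul, Finset.prod_union hab.disjoint_primeFactors]
  ring

@[simp] theorem liftCard_one : liftCard M 1 = 1 := by simp [liftCard]

theorem coprime_liftCard {p n : ℕ} (hp : p.Prime) (hpn : n.Coprime p) :
    (liftCard M n).Coprime p := by
  unfold liftCard
  refine Nat.Coprime.mul_left hpn (Nat.Coprime.prod_left fun r hr => ?_)
  apply Nat.Coprime.pow_left
  have hr' := Nat.mem_primeFactors.mp hr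
  rw [Nat.coprime_primes hr'.1 hp]
  rintro rfl
  exact hp.one_lt.ne' (Nat.eq_one_of_dvd_coprimes hpn hr'.2.1 dvd_rfl)

theorem liftCard_prime_pow {p k : ℕ} (hp : p.Prime) (hk : k ≠ 0) :
    liftCard M (p ^ k) = p ^ k * mPart M p := by
  unfold liftCard
  rw [Nat.primeFactors_prime_pow hk hp, Finset.prod_singleton]

/-- The hypothesis on `p`-subgroups of `G` mapping onto `B`. -/
def GoodP (p : ℕ) (B : Subgroup (G ⧸ M)) : Prop :=
  ∀ Q : Subgroup G, IsPGroup p Q → Q.map (QuotientGroup.mk' M) = B →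
    IsMulCommutative Q ∧ Nat.card Q = liftCard M (Nat.card B) ∧
    ∀ v ∈ normalizer (Q : Set G), (orderOf v).Coprime p →
      (∀ b ∈ Q, v * b * v⁻¹ * b⁻¹ ∈ M) → v ∈ centralizer (Q : Set G)

/-- A `p`-subgroup of `G` inside `C` covering a given `p`-subgroup `B` of the image of `C`, Sylow in
the preimage of `B` in `C`. -/
theorem exists_sylow_lift {p : ℕ} [hp : Fact p.Prime] {C : Subgroup G} {B : Subgroup (G ⧸ M)}
    (hBp : IsPGroup p B) (hBC : B ≤ C.map (QuotientGroup.mk' M)) :
    ∃ Q : Subgroup G, Q ≤ C ∧ IsPGroup p Q ∧ Q.map (QuotientGroup.mk' M) = B ∧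
      ¬ p ∣ (Q.subgroupOf (C ⊓ B.comap (QuotientGroup.mk' M))).index := by
  set π := QuotientGroup.mk' M with hπ
  set T := C ⊓ B.comap π with hT
  obtain ⟨S⟩ : Nonempty (Sylow p T) := inferInstance
  refine ⟨(S : Subgroup T).map T.subtype, ?_, S.isPGroup'.map _, ?_, ?_⟩
  · rintro _ ⟨x, -, rfl⟩
    exact x.2.1
  · apply le_antisymm
    · rintro _ ⟨_, ⟨x, -, rfl⟩, rfl⟩
      exact x.2.2
    · let f : T →* B := (π.comp T.subtype).codRestrict B (fun x => x.2.2)
      have hf : Function.Surjective f := by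
        rintro ⟨b, hb⟩
        obtain ⟨x, hx, rfl⟩ := hBC hb
        exact ⟨⟨x, hx, hb⟩, rfl⟩
      have h1 : ((S : Subgroup T).map f).index ∣ (S : Subgroup T).index :=
        Subgroup.index_map_dvd _ hf
      obtain ⟨k, hk⟩ := IsPGroup.iff_card.mp hBp
      have h2 : ((S : Subgroup T).map f).index ∣ p ^ k := by
        rw [← hk]
        exact Subgroup.index_dvd_card _
      obtain ⟨j, -, hj⟩ := (Nat.dvd_prime_pow hp.out).mp h2
      have hj0 : j = 0 := by
        by_contra hj0
        apply S.not_dvd_index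
        refine (dvd_pow_self p hj0).trans ?_
        rw [← hj]
        exact h1
      have h3 : (S : Subgroup T).map f = ⊤ := by
        rw [← Subgroup.index_eq_one, hj, hj0, pow_zero]
      intro b hb
      have h4 : (⟨b, hb⟩ : B) ∈ (S : Subgroup T).map f := by rw [h3]; trivial
      obtain ⟨x, hx, hxb⟩ := h4
      exact ⟨x, ⟨x, hx, rfl⟩, congrArg Subtype.val hxb⟩
  · have h3 : ((S : Subgroup T).map T.subtype).subgroupOf T = S := by
      ext x
      rw [Subgroup.mem_subgroupOf]
      constructor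
      · rintro ⟨y, hy, hxy⟩
        have : y = x := Subtype.ext hxy
        rwa [← this]
      · intro hx
        exact ⟨x, hx, rfl⟩
    rw [h3]
    exact S.not_dvd_index

/-- The key step: elements of `C` commuting with `B` modulo `M`, of order prime to `p` modulo `M`,
have lifts in `C` centralizing `Q`. -/
theorem exists_centralizing_lift {p : ℕ} [hp : Fact p.Prime] {C Q : Subgroup G}
    {B : Subgroup (G ⧸ M)} (hQC : Q ≤ C) (hQp : IsPGroup p Q)
    (hQB : Q.map (QuotientGroup.mk' M) = B)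
    (hidx : ¬ p ∣ (Q.subgroupOf (C ⊓ B.comap (QuotientGroup.mk' M))).index)
    (hv : ∀ v ∈ normalizer (Q : Set G), (orderOf v).Coprime p →
      (∀ b ∈ Q, v * b * v⁻¹ * b⁻¹ ∈ M) → v ∈ centralizer (Q : Set G))
    {y : G} (hyC : y ∈ C)
    (hyc : ∀ b ∈ B, QuotientGroup.mk' M y * b = b * QuotientGroup.mk' M y)
    (hyp : (orderOf (QuotientGroup.mk' M y)).Coprime p) :
    ∃ v ∈ C ⊓ centralizer (Q : Set G), QuotientGroup.mk' M v = QuotientGroup.mk' M y := by
  classical
  set π := QuotientGroup.mk' M with hπ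
  set T := C ⊓ B.comap π with hT
  have hQT : Q ≤ T := by
    intro b hb
    refine ⟨hQC hb, ?_⟩
    rw [← hQB]
    exact ⟨b, hb, rfl⟩
  -- the conjugate of `Q` by `y`
  have hQy : Q.map (MulAut.conj y).toMonoidHom ≤ T := by
    rintro _ ⟨b, hb, rfl⟩
    refine ⟨C.mul_mem (C.mul_mem hyC (hQC hb)) (C.inv_mem hyC), ?_⟩
    show π (y * b * y⁻¹) ∈ B
    have hbB : π b ∈ B := by
      rw [← hQB]
      exact ⟨b, hb, rfl⟩
    rw [map_mul, map_mul, hyc _ hbB, map_inv, mul_inv_cancel_right]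
    exact hbB
  have hcard : Nat.card Q = Nat.card (Q.map (MulAut.conj y).toMonoidHom : Subgroup G) :=
    Nat.card_congr (Q.equivMapOfInjective _ (MulAut.conj y).injective).toEquiv
  have hQyp : IsPGroup p (Q.map (MulAut.conj y).toMonoidHom : Subgroup G) := hQp.map _
  obtain ⟨t, htT, ht⟩ := exists_conj_of_sylow_in hQT hQy hQp hQyp hidx hcard
  -- write `t = m * b`
  have htB : π t ∈ B := htT.2
  rw [← hQB] at htB
  obtain ⟨b, hb, hbt⟩ := htB
  set m := t * b⁻¹ with hm
  have hmM : m ∈ M := by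
    rw [← QuotientGroup.ker_mk' M]
    show π (t * b⁻¹) = 1
    rw [map_mul, map_inv, ← hbt, mul_inv_cancel]
  have hmT : m ∈ T := T.mul_mem htT (T.inv_mem (hQT hb))
  have hbQ : Q.map (MulAut.conj b).toMonoidHom = Q := by
    ext x
    constructor
    · rintro ⟨c, hc, rfl⟩
      exact Q.mul_mem (Q.mul_mem hb hc) (Q.inv_mem hb)
    · intro hx
      refine ⟨b⁻¹ * x * b, Q.mul_mem (Q.mul_mem (Q.inv_mem hb) hx) hb, ?_⟩
      show b * (b⁻¹ * x * b) * b⁻¹ = x
      group
  have hQm : Q.map (MulAut.conj y).toMonoidHom = Q.map (MulAut.conj m).toMonoidHom := by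
    rw [ht]
    have htm : t = m * b := by rw [hm]; group
    conv_rhs => rw [← hbQ]
    rw [Subgroup.map_map]
    congr 1
    ext x
    show t * (x) * t⁻¹ = (m * (b * x * b⁻¹) * m⁻¹)
    rw [htm]
    group
  -- `w = m⁻¹ y` normalizes `Q`
  set w := m⁻¹ * y with hw
  have hwC : w ∈ C := C.mul_mem (C.inv_mem hmT.1) hyC
  have hwπ : π w = π y := by
    rw [hw, map_mul, map_inv]
    have : π m = 1 := by
      have : m ∈ π.ker := by rw [hπ, QuotientGroup.ker_mk']; exact hmM
      exact this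
    rw [this]
    simp
  have hwN : w ∈ normalizer (Q : Set G) := by
    rw [Subgroup.mem_normalizer_iff]
    intro h
    constructor
    · intro hh
      have h1 : y * h * y⁻¹ ∈ Q.map (MulAut.conj m).toMonoidHom := by
        rw [← hQm]
        exact ⟨h, hh, rfl⟩
      obtain ⟨c, hc, hcm⟩ := h1
      have hcm' : m * c * m⁻¹ = y * h * y⁻¹ := hcm
      have : w * h * w⁻¹ = c := by
        rw [hw]
        calc m⁻¹ * y * h * (m⁻¹ * y)⁻¹ = m⁻¹ * (y * h * y⁻¹) * m := by group
          _ = m⁻¹ * (m * c * m⁻¹) * m := by rw [hcm']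
          _ = c := by group
      rw [this]
      exact hc
    · intro hh
      have h1 : m * (w * h * w⁻¹) * m⁻¹ ∈ Q.map (MulAut.conj y).toMonoidHom := by
        rw [hQm]
        exact ⟨_, hh, rfl⟩
      obtain ⟨c, hc, hcm⟩ := h1
      have hcm' : y * c * y⁻¹ = m * (w * h * w⁻¹) * m⁻¹ := hcm
      have : h = c := by
        have h2 : y * c * y⁻¹ = y * h * y⁻¹ := by
          rw [hcm', hw]
          group
        have h3 := mul_right_cancel (mul_left_cancel (a := y) (b := c * y⁻¹) (c := h * y⁻¹)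
          (by simpa [mul_assoc] using h2))
        exact h3.symm
      rw [this]
      exact hc
  -- the `p'`-part of `w`
  obtain ⟨a, v, hav, -, haz, hvz, ⟨k, hk⟩, hvco⟩ :=
    Cfsg.Agent.Lib.Transfer.Basic.exists_pPart_decomp (p := p) w
  have hvC : v ∈ C := by
    obtain ⟨i, rfl⟩ := Subgroup.mem_zpowers_iff.mp hvz
    exact C.zpow_mem hwC i
  have hvN : v ∈ normalizer (Q : Set G) := by
    obtain ⟨i, rfl⟩ := Subgroup.mem_zpowers_iff.mp hvz
    exact Subgroup.zpow_mem _ hwN i
  have haπ : π a = 1 := by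
    obtain ⟨i, hi⟩ := Subgroup.mem_zpowers_iff.mp haz
    have h1 : orderOf (π a) ∣ orderOf (π y) := by
      rw [← hi, map_zpow, hwπ]
      exact orderOf_dvd_of_pow_eq_one (by
        rw [← zpow_natCast, ← zpow_mul, mul_comm, zpow_mul, zpow_natCast, pow_orderOf_eq_one, one_zpow])
    have h2 : orderOf (π a) ∣ p ^ k := orderOf_dvd_of_pow_eq_one (by rw [← map_pow, hk, map_one])
    have h3 : orderOf (π a) = 1 :=
      Nat.eq_one_of_dvd_coprimes (Nat.Coprime.pow_right k hyp) h1 h2
    exact orderOf_eq_one_iff.mp h3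
  have hvπ : π v = π y := by
    rw [← hwπ, hav, map_mul, haπ, one_mul]
  refine ⟨v, ⟨hvC, hv v hvN hvco ?_⟩, hvπ⟩
  intro c hc
  rw [← QuotientGroup.ker_mk' M, ← hπ, MonoidHom.mem_ker, map_mul, map_mul, map_mul, map_inv, map_inv, hvπ]
  have hcB : π c ∈ B := by
    rw [← hQB]
    exact ⟨c, hc, rfl⟩
  rw [hyc _ hcB]
  group

/-- **The lift**: an abelian subgroup `A` of `G / M` contained in the image of `C`
lifts to an abelian subgroup of `C`, of order `liftCard M |A|`. -/
theorem exists_lift (n : ℕ) : ∀ (A : Subgroup (G ⧸ M)), Nat.card A = n → IsMulCommutative A →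
    (∀ p : ℕ, p.Prime → ∀ B ≤ A, IsPGroup p B → B ≠ ⊥ → GoodP M p B) →
    ∀ C : Subgroup G, A ≤ C.map (QuotientGroup.mk' M) →
    ∃ X ≤ C, IsMulCommutative X ∧ X.map (QuotientGroup.mk' M) = A ∧
      Nat.card X = liftCard M (Nat.card A) := by
  induction n using Nat.strong_induction_on with
  | _ n ih =>
    intro A hAn hAc hgood C hAC
    by_cases h1 : Nat.card A = 1
    · refine ⟨⊥, bot_le, ?_, ?_, ?_⟩
      · exact ⟨⟨fun a b => Subsingleton.elim _ _⟩⟩
      · rw [Subgroup.map_bot, eq_comm]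
        exact (Subgroup.eq_bot_iff_forall _).2 (fun x hx => by
          have : Subsingleton A := (Nat.card_eq_one_iff_unique.mp h1).1
          have h2 := Subsingleton.elim (⟨x, hx⟩ : A) 1
          exact congrArg Subtype.val h2)
      · rw [h1, liftCard_one, Subgroup.card_bot]
    -- pick a prime
    obtain ⟨p, hp, hpd⟩ := Nat.exists_prime_and_dvd h1
    haveI : Fact p.Prime := ⟨hp⟩
    obtain ⟨B, A₁, hBA, hA₁A, hBp, hBne, hcard, hA₁cop, hdecomp⟩ := exists_primary A hAc hp hpd
    obtain ⟨Q, hQC, hQp, hQB, hidx⟩ := exists_sylow_lift M hBp (hBA.trans hAC)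
    obtain ⟨hQc, hQcard, hQv⟩ := hgood p hp B hBA hBp hBne Q hQp hQB
    set π := QuotientGroup.mk' M with hπ
    -- `A₁` lifts into `C ⊓ centralizer Q`
    have hA₁C : A₁ ≤ (C ⊓ centralizer (Q : Set G)).map π := by
      intro x hx
      obtain ⟨y, hyC, rfl⟩ := hAC (hA₁A hx)
      have hcomm : ∀ b ∈ B, π y * b = b * π y := by
        intro b hb
        exact congrArg Subtype.val (hAc.is_comm.comm (⟨π y, hA₁A hx⟩ : A) ⟨b, hBA hb⟩)
      have hco : (orderOf (π y)).Coprime p := by
        refine Nat.Coprime.coprime_dvd_left ?_ hA₁cop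
        have := orderOf_dvd_natCard (⟨π y, hx⟩ : A₁)
        rwa [Subgroup.orderOf_mk] at this
      obtain ⟨v, hv, hvy⟩ := exists_centralizing_lift M hQC hQp hQB hidx hQv hyC hcomm hco
      exact ⟨v, hv, hvy⟩
    have hBcardgt : 1 < Nat.card B := by
      by_contra hle
      apply hBne
      have h0 : Nat.card B = 1 := le_antisymm (not_lt.mp hle) Nat.card_pos
      exact (Subgroup.eq_bot_of_card_eq B h0)
    have hlt : Nat.card A₁ < n := by
      rw [← hAn, ← hcard]
      exact lt_mul_of_one_lt_left Nat.card_pos hBcardgt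
    have hgood₁ : ∀ p : ℕ, p.Prime → ∀ B ≤ A₁, IsPGroup p B → B ≠ ⊥ → GoodP M p B :=
      fun r hr D hD => hgood r hr D (hD.trans hA₁A)
    have hA₁c : IsMulCommutative A₁ := by
      refine ⟨⟨fun a b => Subtype.ext ?_⟩⟩
      have h9 := hAc.is_comm.comm (⟨a, hA₁A a.2⟩ : A) ⟨b, hA₁A b.2⟩
      have h10 := congrArg Subtype.val h9
      exact h10
    obtain ⟨X₁, hX₁C, hX₁c, hX₁π, hX₁card⟩ :=
      ih _ hlt A₁ rfl hA₁c hgood₁ (C ⊓ centralizer (Q : Set G)) hA₁C
    -- orders
    have hBpk : ∃ k, Nat.card B = p ^ k := IsPGroup.iff_card.mp hBp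
    have hcopBA : (Nat.card B).Coprime (Nat.card A₁) := by
      obtain ⟨k, hk⟩ := hBpk
      rw [hk]
      exact (Nat.Coprime.pow_right k hA₁cop).symm
    have hcoX : (Nat.card X₁).Coprime p := by
      rw [hX₁card]
      exact coprime_liftCard M hp hA₁cop
    have hcopQX : (Nat.card X₁).Coprime (Nat.card Q) := by
      obtain ⟨k, hk⟩ := IsPGroup.iff_card.mp hQp
      rw [hk]
      exact Nat.Coprime.pow_right k hcoX
    have hXQ : X₁ ≤ centralizer (Q : Set G) := fun x hx => (hX₁C hx).2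
    have hQX : Q ≤ centralizer (X₁ : Set G) := (Subgroup.le_centralizer_iff).1 hXQ
    have hXN : X₁ ≤ normalizer (Q : Set G) :=
      hXQ.trans (Subgroup.centralizer_le_normalizer _)
    have hdisj : Q ⊓ X₁ = ⊥ :=
      Cfsg.Agent.Lib.Coprime.SchurZassenhaus.disjoint_of_coprime_card hcopQX.symm
    refine ⟨Q ⊔ X₁, sup_le hQC (hX₁C.trans inf_le_left), ?_, ?_, ?_⟩
    · -- commutative
      have hQcen : Q ≤ centralizer (Q : Set G) := by
        intro a ha
        rw [Subgroup.mem_centralizer_iff]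
        intro b hb
        exact congrArg Subtype.val (hQc.is_comm.comm (⟨b, hb⟩ : Q) ⟨a, ha⟩)
      have hXcen : X₁ ≤ centralizer (X₁ : Set G) := by
        intro a ha
        rw [Subgroup.mem_centralizer_iff]
        intro b hb
        exact congrArg Subtype.val (hX₁c.is_comm.comm (⟨b, hb⟩ : X₁) ⟨a, ha⟩)
      have h2 : Q ⊔ X₁ ≤ centralizer (Q : Set G) := sup_le hQcen hXQ
      have h3 : Q ⊔ X₁ ≤ centralizer (X₁ : Set G) := sup_le hQX hXcen
      have h4 : Q ≤ centralizer ((Q ⊔ X₁ : Subgroup G) : Set G) :=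
        (Subgroup.le_centralizer_iff).1 h2
      have h5 : X₁ ≤ centralizer ((Q ⊔ X₁ : Subgroup G) : Set G) :=
        (Subgroup.le_centralizer_iff).1 h3
      have h6 : Q ⊔ X₁ ≤ centralizer ((Q ⊔ X₁ : Subgroup G) : Set G) := sup_le h4 h5
      refine ⟨⟨fun a b => Subtype.ext ?_⟩⟩
      have := (Subgroup.mem_centralizer_iff.mp (h6 b.2)) a a.2
      exact this
    · rw [Subgroup.map_sup, hQB, hX₁π]
      apply le_antisymm (sup_le hBA hA₁A)
      intro x hx
      obtain ⟨b, hb, a, ha, rfl⟩ := hdecomp x hx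
      exact Subgroup.mul_mem _ (Subgroup.mem_sup_left hb) (Subgroup.mem_sup_right ha)
    · rw [← Cfsg.Agent.Lib.Coprime.Action.card_sup_of_le_normalizer hXN hdisj, hQcard, hX₁card,
        ← liftCard_mul M hcopBA, hcard]

/-- The quotient inherits the conjugacy property if the lifts exist. -/
theorem conj_of_lifts {A B : Subgroup (G ⧸ M)} {X Y : Subgroup G}
    (hX : X.map (QuotientGroup.mk' M) = A) (hY : Y.map (QuotientGroup.mk' M) = B) {g : G}
    (hg : Y = X.map (MulAut.conj g).toMonoidHom) :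
    B = A.map (MulAut.conj (QuotientGroup.mk' M g)).toMonoidHom := by
  rw [← hX, ← hY, hg, Subgroup.map_map, Subgroup.map_map]
  congr 1

/-- Case of `GoodP`: `p` does not divide `|M|`. -/
theorem goodP_of_not_dvd {p : ℕ} [hp : Fact p.Prime] (hpM : ¬ p ∣ Nat.card M) {B : Subgroup (G ⧸ M)}
    (hBc : IsMulCommutative B) (hBp : IsPGroup p B) (hBne : B ≠ ⊥) : GoodP M p B := by
  intro Q hQp hQB
  set π := QuotientGroup.mk' M with hπ
  have hdisj : ∀ x ∈ Q, x ∈ M → x = 1 := by
    intro x hx hxM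
    have h1 : (Nat.card M).Coprime p := by
      rw [Nat.coprime_comm, Nat.Prime.coprime_iff_not_dvd hp.out]
      exact hpM
    have h2 : Q ⊓ M = ⊥ := by
      apply Cfsg.Agent.Lib.Coprime.SchurZassenhaus.disjoint_of_coprime_card
      obtain ⟨k, hk⟩ := IsPGroup.iff_card.mp hQp
      rw [hk]
      exact (Nat.Coprime.pow_right k h1).symm
    have h3 : x ∈ Q ⊓ M := ⟨hx, hxM⟩
    rw [h2] at h3
    exact h3
  let f : Q →* B := (π.comp Q.subtype).codRestrict B (fun x => by
    rw [← hQB]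
    exact ⟨x, x.2, rfl⟩)
  have hf : Function.Bijective f := by
    constructor
    · rw [injective_iff_map_eq_one]
      intro a ha
      have h1 : π (a : G) = 1 := congrArg Subtype.val ha
      have h2 : (a : G) ∈ M := (QuotientGroup.eq_one_iff _).1 h1
      exact Subtype.ext (hdisj a a.2 h2)
    · rintro ⟨b, hb⟩
      rw [← hQB] at hb
      obtain ⟨x, hx, rfl⟩ := hb
      exact ⟨⟨x, hx⟩, rfl⟩
  refine ⟨⟨⟨fun a b => hf.1 ?_⟩⟩, ?_, ?_⟩
  · rw [map_mul, map_mul]
    exact hBc.is_comm.comm _ _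
  · have h1 : Nat.card Q = Nat.card B := Nat.card_congr (Equiv.ofBijective f hf)
    obtain ⟨k, hk⟩ := IsPGroup.iff_card.mp hBp
    have hk0 : k ≠ 0 := by
      rintro rfl
      apply hBne
      exact Subgroup.eq_bot_of_card_eq B (by simpa using hk)
    rw [h1, hk, liftCard_prime_pow M hp.out hk0, mPart,
      Nat.factorization_eq_zero_of_not_dvd hpM]
    simp
  · intro v hv _ hc
    rw [Subgroup.mem_centralizer_iff]
    intro b hb
    have h1 : v * b * v⁻¹ ∈ Q := (Subgroup.mem_normalizer_iff.mp hv b).1 hb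
    have h2 := hdisj _ (Q.mul_mem h1 (Q.inv_mem hb)) (hc b hb)
    rw [mul_inv_eq_one] at h2
    calc b * v = (v * b * v⁻¹) * v := by rw [h2]
      _ = v * b := by group

/-- Common part of `GoodP` for cyclic `Q`. -/
theorem centralizer_clause_of_cyclic {p : ℕ} [hp : Fact p.Prime] {Q : Subgroup G}
    (hQc : IsCyclic Q) (hQp : IsPGroup p Q) (hQM : ¬ Q ≤ M) {v : G}
    (hv : v ∈ normalizer (Q : Set G)) (hco : (orderOf v).Coprime p)
    (hc : ∀ b ∈ Q, v * b * v⁻¹ * b⁻¹ ∈ M) : v ∈ centralizer (Q : Set G) := by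
  refine mem_centralizer_of_frattini Q hQp hv hco M ?_ hc
  intro x hxM
  have hD := le_frattini_of_isCyclic hQp (M.subgroupOf Q) (by
    intro htop
    apply hQM
    intro y hy
    have : (⟨y, hy⟩ : Q) ∈ M.subgroupOf Q := by rw [htop]; trivial
    exact this)
  exact hD hxM

/-- In a cyclic group, `x ∈ ⟨z⟩` when the order of `x` divides the order of `z`. -/
theorem mem_zpowers_of_orderOf_dvd {H : Type*} [Group H] [Finite H] [IsCyclic H] {x z : H}
    (h : orderOf x ∣ orderOf z) : x ∈ Subgroup.zpowers z := by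
  classical
  cases nonempty_fintype H
  have hle := IsCyclic.card_pow_eq_one_le (α := H) (orderOf_pos z)
  let F : Finset H := Finset.univ.filter (fun a : H => a ^ orderOf z = 1)
  let E : Finset H := (Finset.range (orderOf z)).image (fun i => z ^ i)
  have hEF : E ⊆ F := by
    intro a ha
    simp only [E, Finset.mem_image, Finset.mem_range] at ha
    obtain ⟨i, -, rfl⟩ := ha
    simp only [F, Finset.mem_filter, Finset.mem_univ, true_and]
    rw [← pow_mul, mul_comm, pow_mul, pow_orderOf_eq_one, one_pow]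
  have hEcard : E.card = orderOf z := by
    rw [Finset.card_image_of_injOn, Finset.card_range]
    intro i hi j hj hij
    exact pow_injOn_Iio_orderOf (by simpa using hi) (by simpa using hj) hij
  have hEq : E = F := Finset.eq_of_subset_of_card_le hEF (by rw [hEcard]; exact hle)
  have hxF : x ∈ F := by
    simp only [F, Finset.mem_filter, Finset.mem_univ, true_and]
    exact orderOf_dvd_iff_pow_eq_one.mp h
  rw [← hEq] at hxF
  simp only [E, Finset.mem_image, Finset.mem_range] at hxF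
  obtain ⟨i, -, rfl⟩ := hxF
  exact Subgroup.pow_mem _ (Subgroup.mem_zpowers z) i

/-- In a cyclic `p`-group, cyclic subgroups form a chain. -/
theorem mem_zpowers_or_mem_zpowers {p : ℕ} [hp : Fact p.Prime] {H : Type*} [Group H] [Finite H]
    [IsCyclic H] (hH : IsPGroup p H) (x z : H) :
    x ∈ Subgroup.zpowers z ∨ z ∈ Subgroup.zpowers x := by
  obtain ⟨i, hi⟩ := hH x
  obtain ⟨j, hj⟩ := hH z
  obtain ⟨a, -, ha⟩ := (Nat.dvd_prime_pow hp.out).mp (orderOf_dvd_of_pow_eq_one hi)
  obtain ⟨b, -, hb⟩ := (Nat.dvd_prime_pow hp.out).mp (orderOf_dvd_of_pow_eq_one hj)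
  rcases le_total a b with hab | hab
  · left
    apply mem_zpowers_of_orderOf_dvd
    rw [ha, hb]
    exact pow_dvd_pow p hab
  · right
    apply mem_zpowers_of_orderOf_dvd
    rw [ha, hb]
    exact pow_dvd_pow p hab

/-- Order of a subgroup in terms of its image. -/
theorem card_eq_card_inf_mul (Q : Subgroup G) :
    Nat.card Q = Nat.card (Q ⊓ M : Subgroup G) * Nat.card (Q.map (QuotientGroup.mk' M) : Subgroup _) := by
  let f : Q →* (Q.map (QuotientGroup.mk' M) : Subgroup _) := (QuotientGroup.mk' M).subgroupMap Q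
  have hf : Function.Surjective f := (QuotientGroup.mk' M).subgroupMap_surjective Q
  have h1 := Subgroup.card_mul_index f.ker
  rw [Subgroup.index_ker, f.range_eq_top.mpr hf, Subgroup.card_top] at h1
  have hker : f.ker = (Q ⊓ M).subgroupOf Q := by
    ext x
    rw [Subgroup.mem_subgroupOf, MonoidHom.mem_ker]
    constructor
    · intro hx
      have h2 : QuotientGroup.mk' M (x : G) = 1 := congrArg Subtype.val hx
      exact ⟨x.2, (QuotientGroup.eq_one_iff _).1 h2⟩
    · intro hx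
      apply Subtype.ext
      exact (QuotientGroup.eq_one_iff _).2 hx.2
  rw [hker, Nat.card_congr (Subgroup.subgroupOfEquivOfLe (inf_le_left : Q ⊓ M ≤ Q)).toEquiv] at h1
  exact h1.symm

/-- The order of the intersection of a Sylow subgroup with `M`. -/
theorem card_sylow_inf {p : ℕ} [hp : Fact p.Prime] (P : Sylow p G) :
    Nat.card ((P : Subgroup G) ⊓ M : Subgroup G) = mPart M p := by
  have h1 := Cfsg.Agent.Lib.Solvable.Hall.card_sup_mul_card_inf (P : Subgroup G) M
  set L := (P : Subgroup G) ⊔ M with hL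
  have hPL : (P : Subgroup G) ≤ L := le_sup_left
  have h2 := Subgroup.card_mul_index ((P : Subgroup G).subgroupOf L)
  rw [Nat.card_congr (Subgroup.subgroupOfEquivOfLe hPL).toEquiv] at h2
  set r := ((P : Subgroup G).subgroupOf L).index with hr
  have hrd : ¬ p ∣ r := by
    intro hd
    apply P.not_dvd_index
    have h3 := Subgroup.relIndex_mul_index hPL
    exact hd.trans (Dvd.intro _ h3)
  have hIp : IsPGroup p ((P : Subgroup G) ⊓ M : Subgroup G) := P.isPGroup'.to_le inf_le_left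
  obtain ⟨b, hb⟩ := IsPGroup.iff_card.mp hIp
  have h4 : Nat.card M = r * p ^ b := by
    have h5 : Nat.card (P : Subgroup G) * (r * Nat.card ((P : Subgroup G) ⊓ M : Subgroup G)) =
        Nat.card (P : Subgroup G) * Nat.card M := by
      rw [← mul_assoc, h2, h1]
    rw [hb] at h5
    exact (Nat.eq_of_mul_eq_mul_left Nat.card_pos h5).symm
  have hr0 : r ≠ 0 := fun h => hrd (h ▸ dvd_zero p)
  rw [hb, mPart, h4, Nat.factorization_mul hr0 (pow_ne_zero _ hp.out.ne_zero), Nat.factorization_pow]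
  simp [Nat.factorization_eq_zero_of_not_dvd hrd, hp.out.factorization_self]

/-- Case of `GoodP`: cyclic Sylow subgroups. -/
theorem goodP_of_isCyclic {p : ℕ} [hp : Fact p.Prime] (hP : ∀ P : Sylow p G, IsCyclic P)
    {B : Subgroup (G ⧸ M)} (hBp : IsPGroup p B) (hBne : B ≠ ⊥) : GoodP M p B := by
  intro Q hQp hQB
  set π := QuotientGroup.mk' M with hπ
  obtain ⟨P, hQP⟩ := hQp.exists_le_sylow
  haveI hPc : IsCyclic P := hP P
  have hQc : IsCyclic Q := by
    have : IsCyclic (Q.subgroupOf (P : Subgroup G)) := inferInstance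
    exact isCyclic_of_surjective (Subgroup.subgroupOfEquivOfLe hQP).toMonoidHom
      (Subgroup.subgroupOfEquivOfLe hQP).surjective
  have hQM : ¬ Q ≤ M := by
    intro h
    apply hBne
    rw [← hQB, eq_bot_iff]
    rintro _ ⟨x, hx, rfl⟩
    exact (QuotientGroup.eq_one_iff x).2 (h hx)
  refine ⟨?_, ?_, ?_⟩
  · exact IsCyclic.isMulCommutative
  · -- `P ⊓ M ≤ Q`
    obtain ⟨x, hxQ, hxM⟩ := Set.not_subset.mp hQM
    have hle : (P : Subgroup G) ⊓ M ≤ Q := by
      intro z hz
      let x' : (P : Subgroup G) := ⟨x, hQP hxQ⟩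
      let z' : (P : Subgroup G) := ⟨z, hz.1⟩
      rcases mem_zpowers_or_mem_zpowers P.isPGroup' x' z' with h | h
      · exfalso
        apply hxM
        obtain ⟨i, hi⟩ := Subgroup.mem_zpowers_iff.mp h
        have h2 : z ^ i = x := congrArg Subtype.val hi
        rw [← h2]
        exact M.zpow_mem hz.2 i
      · obtain ⟨i, hi⟩ := Subgroup.mem_zpowers_iff.mp h
        have h2 : x ^ i = z := congrArg Subtype.val hi
        rw [← h2]
        exact Q.zpow_mem hxQ i
    have heq : Q ⊓ M = (P : Subgroup G) ⊓ M :=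
      le_antisymm (inf_le_inf_right M hQP) (le_inf hle inf_le_right)
    have h1 := card_eq_card_inf_mul M Q
    rw [heq, card_sylow_inf M P, hQB] at h1
    obtain ⟨k, hk⟩ := IsPGroup.iff_card.mp hBp
    have hk0 : k ≠ 0 := by
      rintro rfl
      apply hBne
      exact Subgroup.eq_bot_of_card_eq B (by simpa using hk)
    rw [h1, hk, liftCard_prime_pow M hp.out hk0, mul_comm]
  · intro v hv hco hc
    exact centralizer_clause_of_cyclic M hQc hQp hQM hv hco hc

end lift

end Cfsg.Agent.Lib.BN.Lift
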