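import Cfsg.Agent.S3908
import Cfsg.Agent.S3909
import Cfsg.Agent.Lib.BN.Lift
import Cfsg.Agent.Lib.Transfer.Frobenius

/-!
# Quotients of groups in which abelian subgroups of the same order are conjugate
-/

set_option autoImplicit false
set_option linter.style.haveILetI false
set_option linter.unusedSectionVars false

namespace Cfsg.Agent.Lib.BN.Quot

open Subgroup Cfsg.Agent.Lib.BN.Lift

/-- Abelian subgroups of the same order are conjugate. -/
abbrev BNProp (G : Type*) [Group G] : Prop :=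
  ∀ A B : Subgroup G, IsMulCommutative ↥A → IsMulCommutative ↥B → Nat.card ↥A = Nat.card ↥B →
    ∃ g : G, B = A.map (MulAut.conj g).toMonoidHom

variable {G : Type*} [Group G] [Finite G] (M : Subgroup G) [hM : M.Normal]

/-- If a Sylow subgroup lies in `M`, the quotient has no nontrivial `p`-subgroups. -/
theorem eq_bot_of_sylow_le {p : ℕ} [hp : Fact p.Prime] (P : Sylow p G) (hPM : (P : Subgroup G) ≤ M)
    (D : Subgroup (G ⧸ M)) (hD : IsPGroup p D) : D = ⊥ := by
  have htop : D ≤ (⊤ : Subgroup G).map (QuotientGroup.mk' M) := by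
    rw [← MonoidHom.range_eq_map, (QuotientGroup.mk' M).range_eq_top.mpr (QuotientGroup.mk'_surjective M)]
    exact le_top
  obtain ⟨Q, -, hQp, hQD, -⟩ := exists_sylow_lift M hD htop
  obtain ⟨P', hP'⟩ := hQp.exists_le_sylow
  obtain ⟨g, rfl⟩ := MulAction.exists_smul_eq G P P'
  rw [← hQD, eq_bot_iff]
  rintro _ ⟨x, hx, rfl⟩
  have h1 := (Cfsg.Agent.Lib.Transfer.Frobenius.mem_smul_sylow_iff g x P).mp (hP' hx)
  have h2 : x ∈ M := by
    have := hM.conj_mem _ (hPM h1) g
    simpa [mul_assoc] using this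
  exact (QuotientGroup.eq_one_iff x).2 h2

/-- The key consequence of conjugacy: a Sylow subgroup of exponent `p`, with `p ∣ |M|`, lies in `M`. -/
theorem sylow_le_of_exponent (hB : BNProp G) {p : ℕ} [hp : Fact p.Prime] (hpM : p ∣ Nat.card M)
    (P : Sylow p G) (hP : ∀ x ∈ (P : Subgroup G), x ^ p = 1) : (P : Subgroup G) ≤ M := by
  obtain ⟨m, hm⟩ := exists_prime_orderOf_dvd_card' (G := M) p hpM
  intro a ha
  have h1 := (Cfsg.Agent.S3909.result hB M).1
  by_cases ha1 : a = 1
  · rw [ha1]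
    exact M.one_mem
  · have h2 : orderOf a = p := orderOf_eq_prime (hP a ha) ha1
    exact h1 a ⟨m, m.2, by rw [Subgroup.orderOf_coe, hm, h2]⟩

/-- `IsCyclic` is invariant among Sylow subgroups. -/
theorem isCyclic_sylow_of {p : ℕ} [hp : Fact p.Prime] (P P' : Sylow p G) (h : IsCyclic P) :
    IsCyclic P' :=
  isCyclic_of_surjective (P.equiv P').toMonoidHom (P.equiv P').surjective

/-- `GoodP` for odd primes. -/
theorem goodP_odd (hB : BNProp G) {p : ℕ} [hp : Fact p.Prime] (hp2 : p ≠ 2) {D : Subgroup (G ⧸ M)}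
    (hDc : IsMulCommutative D) (hDp : IsPGroup p D) (hDne : D ≠ ⊥) : GoodP M p D := by
  by_cases hpM : p ∣ Nat.card M
  · by_cases hc : ∀ P : Sylow p G, IsCyclic P
    · exact goodP_of_isCyclic M hc hDp hDne
    · exfalso
      push Not at hc
      obtain ⟨P₀, hP₀⟩ := hc
      rcases (Cfsg.Agent.S3908.result hB).2 p hp2 P₀ with h | h
      · exact hP₀ h
      · exact hDne (eq_bot_of_sylow_le M P₀ (sylow_le_of_exponent M hB hpM P₀ h) D hDp)
  · exact goodP_of_not_dvd M hpM hDc hDp hDne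

theorem le_map_top (A : Subgroup (G ⧸ M)) : A ≤ (⊤ : Subgroup G).map (QuotientGroup.mk' M) := by
  rw [← MonoidHom.range_eq_map, (QuotientGroup.mk' M).range_eq_top.mpr (QuotientGroup.mk'_surjective M)]
  exact le_top

/-- The quotient has the conjugacy property as soon as `GoodP` holds for the subgroups of the two
given abelian subgroups. -/
theorem conj_of_goodP (hB : BNProp G) {A B : Subgroup (G ⧸ M)} (hA : IsMulCommutative A)
    (hB' : IsMulCommutative B) (hAB : Nat.card A = Nat.card B)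
    (hgA : ∀ p : ℕ, p.Prime → ∀ D ≤ A, IsPGroup p D → D ≠ ⊥ → GoodP M p D)
    (hgB : ∀ p : ℕ, p.Prime → ∀ D ≤ B, IsPGroup p D → D ≠ ⊥ → GoodP M p D) :
    ∃ g : G ⧸ M, B = A.map (MulAut.conj g).toMonoidHom := by
  obtain ⟨X, -, hXc, hXm, hXcard⟩ := exists_lift M _ A rfl hA hgA ⊤ (le_map_top M A)
  obtain ⟨Y, -, hYc, hYm, hYcard⟩ := exists_lift M _ B rfl hB' hgB ⊤ (le_map_top M B)
  obtain ⟨g, hg⟩ := hB X Y hXc hYc (by rw [hXcard, hYcard, hAB])
  exact ⟨_, conj_of_lifts M hXm hYm hg⟩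

theorem isMulCommutative_of_le {H : Type*} [Group H] {A D : Subgroup H} (hD : D ≤ A)
    (hA : IsMulCommutative A) : IsMulCommutative D := by
  refine ⟨⟨fun a b => Subtype.ext ?_⟩⟩
  have h9 := hA.is_comm.comm (⟨a, hD a.2⟩ : A) ⟨b, hD b.2⟩
  have h10 := congrArg Subtype.val h9
  exact h10

end Cfsg.Agent.Lib.BN.Quot
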